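import Cfsg.Agent.H998.SpExc.Iso
import Cfsg.Agent.H998.SpExc.Arith
import Cfsg.Agent.S1062
import Cfsg.Agent.S1066
import Cfsg.Agent.S1067

/-!
# Sporadic factors: `F₄`, `E₆`, `E₈`, `²E₆`, `³D₄` (helper998, for S3666)
-/

set_option autoImplicit false

namespace Cfsg.Agent.H998.SpExc

open Cfsg Cfsg.Agent.H129 Cfsg.Agent.H129.CycT Cfsg.Agent.H129.RealT

universe u v

/-- the element orders of `X` are element orders of `L` -/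
def Sub (X : Type*) (L : Type*) [Group X] [Group L] : Prop := ∀ x : X, ∃ y : L, orderOf y = orderOf x

/-- the isolated primes of `L` divide `|X|` to the full power -/
def Par (X : Type*) (L : Type*) [Group X] [Group L] : Prop :=
  ∀ p k : ℕ, p.Prime → p ≠ 2 → p ∣ Nat.card L → (¬ ∃ y : L, orderOf y = 2 * p) → (∃ y : L, orderOf y = p ^ k) →
      p ^ k ∣ Nat.card X

/-- an isolated odd prime exists -/
def Two (L : Type*) [Group L] : Prop :=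
  ∃ p : ℕ, p.Prime ∧ p ≠ 2 ∧ p ∣ Nat.card L ∧ ¬ ∃ y : L, orderOf y = 2 * p

theorem Sub.prime {X : Type u} {L : Type v} [Group X] [Finite X] [Group L] (h : Sub X L) {p : ℕ} (hp : p.Prime)
    (hd : p ∣ Nat.card X) : p ∣ Nat.card L := by
  have : Fact p.Prime := ⟨hp⟩
  obtain ⟨x, hx⟩ := exists_prime_orderOf_dvd_card' p hd
  obtain ⟨y, hy⟩ := h x
  rw [hx] at hy
  rw [← hy]
  exact orderOf_dvd_natCard y

theorem Sub.trans_equiv {X : Type u} {L : Type v} {L' : Type*} [Group X] [Group L] [Group L'] (h : Sub X L) (e : L ≃* L') :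
    Sub X L' := by
  intro x
  obtain ⟨y, hy⟩ := h x
  exact ⟨e y, by rw [MulEquiv.orderOf_eq, hy]⟩

theorem Par.trans_equiv {X : Type u} {L : Type v} {L' : Type*} [Group X] [Group L] [Group L'] (h : Par X L) (e : L ≃* L') :
    Par X L' := by
  intro p k hp hp2 hd hn hy
  refine h p k hp hp2 ?_ ?_ ?_
  · rwa [Nat.card_congr e.toEquiv]
  · rintro ⟨y, hy⟩
    exact hn ⟨e y, by rw [MulEquiv.orderOf_eq, hy]⟩
  · obtain ⟨y, hy⟩ := hy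
    exact ⟨e.symm y, by rw [MulEquiv.orderOf_eq, hy]⟩

theorem Two.of_equiv {L : Type u} {L' : Type v} [Group L] [Group L'] (e : L ≃* L') (h : Two L') : Two L := by
  obtain ⟨p, hp, hp2, hd, hn⟩ := h
  refine ⟨p, hp, hp2, ?_, ?_⟩
  · rwa [Nat.card_congr e.toEquiv]
  · rintro ⟨y, hy⟩
    exact hn ⟨e y, by rw [MulEquiv.orderOf_eq, hy]⟩

/-! ### numbers -/

theorem odd_12 {q N : ℕ} (hN : (N : ℤ) = 1 - (q : ℤ) ^ 2 + (q : ℤ) ^ 4) : ¬ 2 ∣ N := fun h => (primes_12 hN h).1 rfl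

theorem exists_12 (q : ℕ) (hq : 1 ≤ q) : ∃ N : ℕ, (N : ℤ) = 1 - (q : ℤ) ^ 2 + (q : ℤ) ^ 4 := by
  refine ⟨(1 - (q : ℤ) ^ 2 + (q : ℤ) ^ 4).toNat, Int.toNat_of_nonneg ?_⟩
  have h1 : (1 : ℤ) ≤ (q : ℤ) ^ 2 := one_le_pow₀ (by exact_mod_cast hq)
  nlinarith

theorem exists_24 (q : ℕ) (hq : 1 ≤ q) : ∃ N : ℕ, (N : ℤ) = 1 - (q : ℤ) ^ 4 + (q : ℤ) ^ 8 := by
  refine ⟨(1 - (q : ℤ) ^ 4 + (q : ℤ) ^ 8).toNat, Int.toNat_of_nonneg ?_⟩
  have h1 : (1 : ℤ) ≤ (q : ℤ) ^ 4 := one_le_pow₀ (by exact_mod_cast hq)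
  nlinarith

theorem exists_18 (q : ℕ) (hq : 1 ≤ q) : ∃ N : ℕ, (N : ℤ) = 1 - (q : ℤ) ^ 3 + (q : ℤ) ^ 6 := by
  refine ⟨(1 - (q : ℤ) ^ 3 + (q : ℤ) ^ 6).toNat, Int.toNat_of_nonneg ?_⟩
  have h1 : (1 : ℤ) ≤ (q : ℤ) ^ 3 := one_le_pow₀ (by exact_mod_cast hq)
  nlinarith

theorem ne_one_12 {q N : ℕ} (hq : 2 ≤ q) (hN : (N : ℤ) = 1 - (q : ℤ) ^ 2 + (q : ℤ) ^ 4) : N ≠ 1 := by
  rintro rfl
  have h1 : (4 : ℤ) ≤ (q : ℤ) ^ 2 := by
    have : (2 : ℤ) ≤ q := by exact_mod_cast hq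
    nlinarith
  push_cast at hN
  nlinarith

theorem ne_one_24 {q N : ℕ} (hq : 2 ≤ q) (hN : (N : ℤ) = 1 - (q : ℤ) ^ 4 + (q : ℤ) ^ 8) : N ≠ 1 := by
  rintro rfl
  have h1 : (4 : ℤ) ≤ (q : ℤ) ^ 2 := by
    have : (2 : ℤ) ≤ q := by exact_mod_cast hq
    nlinarith
  have h2 : (16 : ℤ) ≤ (q : ℤ) ^ 4 := by nlinarith
  push_cast at hN
  nlinarith

theorem gt_18 {q N : ℕ} (hq : 2 ≤ q) (hN : (N : ℤ) = 1 - (q : ℤ) ^ 3 + (q : ℤ) ^ 6) : 3 < N := by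
  have h1 : (8 : ℤ) ≤ (q : ℤ) ^ 3 := by
    have : 2 ^ 3 ≤ q ^ 3 := Nat.pow_le_pow_left hq 3
    exact_mod_cast this
  have h2 : (3 : ℤ) < N := by rw [hN]; nlinarith
  exact_mod_cast h2

theorem split {N d : ℕ} (h9 : ¬ 9 ∣ N) (hd : (d = 1 ∧ ¬ 3 ∣ N) ∨ (d = 3 ∧ 3 ∣ N)) :
    (N = N / d ∨ N = 3 * (N / d)) ∧ ¬ 3 ∣ N / d := by
  rcases hd with ⟨rfl, h⟩ | ⟨rfl, h⟩
  · rw [Nat.div_one]
    exact ⟨Or.inl rfl, h⟩
  · obtain ⟨c, rfl⟩ := h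
    rw [Nat.mul_div_cancel_left c (by norm_num)]
    refine ⟨Or.inr rfl, fun h => h9 ?_⟩
    obtain ⟨e, rfl⟩ := h
    exact ⟨e, by ring⟩

theorem gcd3 {n : ℕ} : (Nat.gcd 3 n = 1 ∧ ¬ 3 ∣ n) ∨ (Nat.gcd 3 n = 3 ∧ 3 ∣ n) := by
  by_cases h : 3 ∣ n
  · exact Or.inr ⟨Nat.gcd_eq_left h, h⟩
  · exact Or.inl ⟨(Nat.Prime.coprime_iff_not_dvd Nat.prime_three).2 h, h⟩

theorem three_iff_9 {q N : ℕ} (hq : 1 ≤ q) (hN : (N : ℤ) = 1 + (q : ℤ) ^ 3 + (q : ℤ) ^ 6) : 3 ∣ N ↔ 3 ∣ q - 1 := by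
  rw [← ZMod.natCast_eq_zero_iff, ← ZMod.natCast_eq_zero_iff]
  have h1 : ((N : ℤ) : ZMod 3) = 1 + (q : ZMod 3) ^ 3 + (q : ZMod 3) ^ 6 := by rw [hN]; push_cast; rfl
  rw [Int.cast_natCast] at h1
  have h2 : ((q - 1 : ℕ) : ZMod 3) = (q : ZMod 3) - 1 := by rw [Nat.cast_sub hq, Nat.cast_one]
  rw [h1, h2]
  generalize (q : ZMod 3) = x
  revert x
  decide

theorem three_iff_18 {q N : ℕ} (hN : (N : ℤ) = 1 - (q : ℤ) ^ 3 + (q : ℤ) ^ 6) : 3 ∣ N ↔ 3 ∣ q + 1 := by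
  rw [← ZMod.natCast_eq_zero_iff, ← ZMod.natCast_eq_zero_iff]
  have h1 : ((N : ℤ) : ZMod 3) = 1 - (q : ZMod 3) ^ 3 + (q : ZMod 3) ^ 6 := by rw [hN]; push_cast; rfl
  rw [Int.cast_natCast] at h1
  have h2 : ((q + 1 : ℕ) : ZMod 3) = (q : ZMod 3) + 1 := by rw [Nat.cast_add, Nat.cast_one]
  rw [h1, h2]
  generalize (q : ZMod 3) = x
  revert x
  decide

/-! ### `F₄` -/

section Untw

variable {F : Type u} [Field F] [Fintype F]

theorem isol_F4 {q N : ℕ} (hq : Fintype.card F = q) (hN : (N : ℤ) = 1 - (q : ℤ) ^ 2 + (q : ℤ) ^ 4) :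
    Isol ↥(Cfsg.Lie.chevF4.group F) N := isol_of_exact (exact_F4_12 hq hN) (odd_12 hN)

theorem F4_two : Two ↥(Cfsg.Lie.chevF4.group F) := by
  obtain ⟨N, hN⟩ := exists_12 (Fintype.card F) Fintype.one_lt_card.le
  exact (isol_F4 rfl hN).two (ne_one_12 Fintype.one_lt_card hN)

theorem F4_false {X : Type v} [Group X] [Finite X] (hX : Cfsg.IsSporadic X) (hs : Sub X ↥(Cfsg.Lie.chevF4.group F))
    (hP : Par X ↥(Cfsg.Lie.chevF4.group F)) : False := by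
  obtain ⟨N, hN⟩ := exists_12 (Fintype.card F) Fintype.one_lt_card.le
  have hn := card_mem hX
  have h1 := (isol_F4 rfl hN).dvd hP
  have hq := q_of_12 Fintype.one_lt_card hN hn h1
  rw [hq] at hN
  have hN' : N = 13 := by
    have : (N : ℤ) = 13 := by rw [hN]; norm_num
    exact_mod_cast this
  rw [hN'] at h1
  have h2 : Isol ↥(Cfsg.Lie.chevF4.group F) 17 :=
    isol_of_exact (exact_F4_8 (q := 2) (N := 17) hq (by norm_num) (by norm_num)) (by norm_num)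
  have h3 := hs.prime (by norm_num : Nat.Prime 11) (f4_two _ hn h1 (h2.dvd hP))
  rw [Cfsg.Agent.S1062.result hq] at h3
  revert h3
  decide

/-! ### `E₆` -/

theorem isol_E6 {q N : ℕ} (hq : Fintype.card F = q) (hN : (N : ℤ) = 1 + (q : ℤ) ^ 3 + (q : ℤ) ^ 6) :
    Isol ↥(Cfsg.Lie.chevE6.group F) (N / Nat.gcd 3 (q - 1)) ∧ (N = N / Nat.gcd 3 (q - 1) ∨ N = 3 * (N / Nat.gcd 3 (q - 1))) ∧
      ¬ 3 ∣ N / Nat.gcd 3 (q - 1) := by
  have hq1 : 1 ≤ q := hq ▸ Fintype.one_lt_card.le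
  obtain ⟨h9, hpr⟩ := primes_9 hN
  have h2 : ¬ 2 ∣ N := fun h => (hpr h).1 rfl
  have h3 := split (d := Nat.gcd 3 (q - 1)) h9 (by rw [three_iff_9 hq1 hN]; exact gcd3)
  refine ⟨isol_of_exact (exact_E6_9 hq hN) fun h => h2 ?_, h3⟩
  rcases h3.1 with h4 | h4
  · rw [h4]; exact h
  · rw [h4]; exact h.mul_left 3

theorem E6_two : Two ↥(Cfsg.Lie.chevE6.group F) := by
  have hq1 : 2 ≤ Fintype.card F := Fintype.one_lt_card
  obtain ⟨h1, h2, h3⟩ := isol_E6 (F := F) (N := 1 + Fintype.card F ^ 3 + Fintype.card F ^ 6) rfl (by push_cast; rfl)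
  refine h1.two ?_
  have h4 : 2 ^ 3 ≤ Fintype.card F ^ 3 := Nat.pow_le_pow_left hq1 3
  omega

theorem E6_false {X : Type v} [Group X] [Finite X] (hX : Cfsg.IsSporadic X)
    (hP : Par X ↥(Cfsg.Lie.chevE6.group F)) : False := by
  have hN : ((1 + Fintype.card F ^ 3 + Fintype.card F ^ 6 : ℕ) : ℤ) = 1 + (Fintype.card F : ℤ) ^ 3 + (Fintype.card F : ℤ) ^ 6 := by
    push_cast; rfl
  obtain ⟨h1, h2, h3⟩ := isol_E6 (F := F) rfl hN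
  exact not_9 Fintype.one_lt_card hN h2 (primes_9 hN).1 h3 (card_mem hX) (h1.dvd hP)

/-! ### `E₈` -/

theorem odd_24 {q N : ℕ} (hN : (N : ℤ) = 1 - (q : ℤ) ^ 4 + (q : ℤ) ^ 8) : ¬ 2 ∣ N := by
  intro h
  have hz : (1 - (q : ZMod 2) ^ 4 + (q : ZMod 2) ^ 8 = 0) := by
    have := (ZMod.natCast_eq_zero_iff N 2).2 h
    rw [← Int.cast_natCast, hN] at this
    push_cast at this
    exact this
  generalize (q : ZMod 2) = x at hz; revert hz; revert x; decide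

theorem isol_E8 {q N : ℕ} (hq : Fintype.card F = q) (hN : (N : ℤ) = 1 - (q : ℤ) ^ 4 + (q : ℤ) ^ 8) :
    Isol ↥(Cfsg.Lie.chevE8.group F) N := isol_of_exact (exact_E8_24 hq hN) (odd_24 hN)

theorem E8_two : Two ↥(Cfsg.Lie.chevE8.group F) := by
  obtain ⟨N, hN⟩ := exists_24 (Fintype.card F) Fintype.one_lt_card.le
  exact (isol_E8 rfl hN).two (ne_one_24 Fintype.one_lt_card hN)

theorem E8_false {X : Type v} [Group X] [Finite X] (hX : Cfsg.IsSporadic X)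
    (hP : Par X ↥(Cfsg.Lie.chevE8.group F)) : False := by
  obtain ⟨N, hN⟩ := exists_24 (Fintype.card F) Fintype.one_lt_card.le
  exact not_24 Fintype.one_lt_card hN (card_mem hX) ((isol_E8 rfl hN).dvd hP)

/-! ### `³D₄` -/

theorem isol_tD4 {q N : ℕ} (hq : IsPrimePow q) (hK : Fintype.card F = q ^ 3)
    (hN : (N : ℤ) = 1 - (q : ℤ) ^ 2 + (q : ℤ) ^ 4) : Isol ↥(Cfsg.Lie.twistedD4 F q) N :=
  isol_of_exact (exact_tD4_12 hq hK hN) (odd_12 hN)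

theorem tD4_two {q : ℕ} (hq : IsPrimePow q) (hK : Fintype.card F = q ^ 3) : Two ↥(Cfsg.Lie.twistedD4 F q) := by
  obtain ⟨N, hN⟩ := exists_12 q hq.pos
  exact (isol_tD4 hq hK hN).two (ne_one_12 hq.two_le hN)

theorem tD4_false {q : ℕ} (hq : IsPrimePow q) (hK : Fintype.card F = q ^ 3) {X : Type v} [Group X] [Finite X]
    (hX : Cfsg.IsSporadic X) (hs : Sub X ↥(Cfsg.Lie.twistedD4 F q)) (hP : Par X ↥(Cfsg.Lie.twistedD4 F q)) : False := by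
  obtain ⟨N, hN⟩ := exists_12 q hq.pos
  have hn := card_mem hX
  have hq2 := q_of_12 hq.two_le hN hn ((isol_tD4 hq hK hN).dvd hP)
  have h3 := hs.prime (by norm_num : Nat.Prime 5) (five_dvd _ hn)
  rw [Cfsg.Agent.S1067.result hq hK, hq2] at h3
  revert h3
  decide

/-! ### `²E₆` -/

theorem isol_tE6 {q N : ℕ} (hq : IsPrimePow q) (hK : Fintype.card F = q ^ 2)
    (hN : (N : ℤ) = 1 - (q : ℤ) ^ 3 + (q : ℤ) ^ 6) :
    Isol ↥(Cfsg.Lie.twistedE6 F q) (N / Nat.gcd 3 (q + 1)) ∧ (N = N / Nat.gcd 3 (q + 1) ∨ N = 3 * (N / Nat.gcd 3 (q + 1))) ∧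
      ¬ 3 ∣ N / Nat.gcd 3 (q + 1) := by
  obtain ⟨h9, hpr⟩ := primes_18 hN
  have h2 : ¬ 2 ∣ N := fun h => (hpr h).1 rfl
  have h3 := split (d := Nat.gcd 3 (q + 1)) h9 (by rw [three_iff_18 hN]; exact gcd3)
  refine ⟨isol_of_exact (exact_tE6_18 hq hK hN) fun h => h2 ?_, h3⟩
  rcases h3.1 with h4 | h4
  · rw [h4]; exact h
  · rw [h4]; exact h.mul_left 3

theorem tE6_two {q : ℕ} (hq : IsPrimePow q) (hK : Fintype.card F = q ^ 2) : Two ↥(Cfsg.Lie.twistedE6 F q) := by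
  obtain ⟨N, hN⟩ := exists_18 q hq.pos
  obtain ⟨h1, h2, h3⟩ := isol_tE6 hq hK hN
  have h4 := gt_18 hq.two_le hN
  exact h1.two (by omega)

/-- `13` is isolated in `²E₆(2)` -/
theorem isol_tE6_13 (hK : Fintype.card F = 2 ^ 2) : Isol ↥(Cfsg.Lie.twistedE6 F 2) 13 := by
  have hq : IsPrimePow 2 := Nat.prime_two.isPrimePow
  have hM : ((39 : ℕ) : ℤ) = 1 - ((2 : ℕ) : ℤ) + ((2 : ℕ) : ℤ) ^ 3 - ((2 : ℕ) : ℤ) ^ 5 + ((2 : ℕ) : ℤ) ^ 6 := by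
    norm_num
  obtain ⟨T, h1, h3, h4, h5, -⟩ := TwT.flip_T hq hK DataTE6c.hA DataTE6c.chainOK DataTE6c.hd_pi DataTE6c.cycOK
    DataTE6c.rootOK DataTE6c.chain2OK DataTE6c.hd2_eq (N := 39) (by rw [DataTE6c.fN_eq, hM])
    (UntwData.coprime_of_eq (a := -1 + ((2 : ℕ) : ℤ) ^ 2 - ((2 : ℕ) : ℤ) ^ 4 + ((2 : ℕ) : ℤ) ^ 5) (by norm_num))
  have h13 : 13 ∣ Nat.card ↥T := by
    have h6 : 13 ∣ Nat.gcd 3 (2 + 1) * Nat.card ↥T := (by norm_num : 13 ∣ 39).trans h4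
    exact (Nat.Coprime.dvd_mul_left (by decide)).1 h6
  refine isol_of_torus h1 (fun h => ?_) (fun r k hr hk hd => hd.trans h13) fun r hr hd => ?_
  · have := h.trans h3
    omega
  · obtain rfl := (Nat.prime_dvd_prime_iff_eq hr (by norm_num : Nat.Prime 13)).1 hd
    refine h5 13 hr (not_dvd_W_E6 hr (by norm_num) (by norm_num) (by norm_num)) fun s hs => ?_
    rcases DataTE6c.dvd_of_G (x := ((2 : ℕ) : ℤ)) (r := ((13 : ℕ) : ℤ)) (by norm_num) s hs with h | h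
    · exact not_one hr h
    · exact not_prime hr Nat.prime_two (by norm_num) h

theorem tE6_false {q : ℕ} (hq : IsPrimePow q) (hK : Fintype.card F = q ^ 2) {X : Type v} [Group X] [Finite X]
    (hX : Cfsg.IsSporadic X) (hs : Sub X ↥(Cfsg.Lie.twistedE6 F q)) (hP : Par X ↥(Cfsg.Lie.twistedE6 F q)) : False := by
  obtain ⟨N, hN⟩ := exists_18 q hq.pos
  have hn := card_mem hX
  obtain ⟨h1, h2, h3⟩ := isol_tE6 hq hK hN
  have hq2 := q_of_18 hq.two_le hN h2 (primes_18 hN).1 h3 hn (h1.dvd hP)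
  subst hq2
  have hN' : N = 57 := by
    have : (N : ℤ) = 57 := by rw [hN]; norm_num
    exact_mod_cast this
  rw [hN'] at h1
  have h4 : 19 ∣ Nat.card X := h1.dvd hP
  have h5 := hs.prime (by norm_num : Nat.Prime 31) (e6_two _ hn ((isol_tE6_13 hK).dvd hP) h4)
  have h6 := h5.mul_left (Nat.gcd 3 (2 + 1))
  rw [Cfsg.Agent.S1066.result hq hK] at h6
  revert h6
  decide

end Untw

end Cfsg.Agent.H998.SpExc
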